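import Cfsg.Agent.H935.FiThree.Max
import Cfsg.Agent.LThreeFi23.TwoCl
import Cfsg.Agent.LThreeFi24.Twin
import Cfsg.Agent.FastGrp
import Cfsg.Agent.Prune
set_option linter.all false
prune_inst 0x7f00000000000000000000000000000000000000000000000000000000000000000000000000000000000000000000000000000000000000000000000000000000000000000000000000000000000000003fffffffffffffffffffffffffffbeffbdffffffff
open scoped Cfsg.Agent.FastGrp

/-!
# `Fi23`: the normalizer of `⟨w0⟩` (class 3B) is solvable
-/

set_option autoImplicit false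
set_option maxRecDepth 100000
set_option linter.constructorNameAsVariable false

namespace Cfsg.Agent.H935.FiThree

open Subgroup Cfsg Cfsg.Agent.Lib.PermNet Cfsg.Agent.Lib.PermNetFix Cfsg.Agent.LThreeFi23
open Cfsg.Spor (Fi23)
open Cfsg.Agent.Fischer.Fi23Hom (rho)

theorem bit_lt {w : List Lt} {p : ℕ} (h : (moved 15 (ntw w)).testBit p = true) : p < 2 ^ 15 := by
  by_contra hp
  unfold moved at h
  rw [testBit_movedAux (ntw_ok w)] at h
  obtain ⟨b, -, hb⟩ := h
  exact hb (by rw [wperm_eq_of_le (ntw_ok w) (by omega)])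

theorem bit_iff (w : List Lt) (p : ℕ) : (moved 15 (ntw w)).testBit p = true ↔ rho (elw w) p ≠ p := by
  rw [rho_elw]
  by_cases hp : p < 2 ^ 15
  · exact testBit_moved (ntw_ok w) hp
  · constructor
    · exact fun h => absurd (bit_lt h) hp
    · intro h
      exact absurd (wperm_eq_of_le (ntw_ok w) (by omega)) h

theorem ncard_moved (w : List Lt) {n : ℕ} (h : Lib.PermNetOrbit.pc 15 (moved 15 (ntw w)) = n) :
    {p : ℕ | rho (elw w) p ≠ p}.ncard = n := by
  have hlt : moved 15 (ntw w) < 2 ^ 2 ^ 15 := by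
    apply Nat.lt_pow_two_of_testBit
    intro i hi
    by_contra hc
    have h1 := bit_lt (w := w) (p := i) (by simpa using hc)
    omega
  rw [← h, Lib.PermNetOrbit.pc_eq 15 _ hlt, ← Set.ncard_coe_finset]
  congr 1
  ext p
  rw [Set.mem_ofPred_eq, Finset.mem_coe, Lib.PermNetOrbit.mem_bits, ← bit_iff]
  constructor
  · exact fun hp => ⟨bit_lt hp, hp⟩
  · exact fun hp => hp.2

theorem ncard_conj {x y : Fi23} (h : IsConj x y) : {p : ℕ | rho x p ≠ p}.ncard = {p : ℕ | rho y p ≠ p}.ncard := by
  obtain ⟨c, rfl⟩ := isConj_iff.1 h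
  have h1 : {p : ℕ | rho (c * x * c⁻¹) p ≠ p} = (rho c) '' {p : ℕ | rho x p ≠ p} := by
    ext p
    simp only [Set.mem_image, Set.mem_ofPred_eq]
    constructor
    · intro hp
      refine ⟨rho c⁻¹ p, ?_, ?_⟩
      · intro he
        apply hp
        rw [map_mul, map_mul, Equiv.Perm.mul_apply, Equiv.Perm.mul_apply, he, ← Equiv.Perm.mul_apply, ← map_mul,
          mul_inv_cancel, map_one]
        rfl
      · rw [← Equiv.Perm.mul_apply, ← map_mul, mul_inv_cancel, map_one]
        rfl
    · rintro ⟨q, hq, rfl⟩ he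
      apply hq
      rw [← Equiv.Perm.mul_apply, ← map_mul, inv_mul_cancel_right, map_mul, Equiv.Perm.mul_apply] at he
      exact (rho c).injective he
  rw [h1, Set.ncard_image_of_injective _ (rho c).injective]

theorem ncard_W : {p : ℕ | rho W p ≠ p}.ncard = 31347 := ncard_moved w0 orb_facts.2.2.2.2.1

theorem not_conj_uu : ¬ IsConj W uu := by
  intro h
  have h1 := ncard_conj h
  rw [ncard_W, ← uu_eq, ncard_moved [.z, .j] (Nat.eq_of_beq_eq_true chk_uu)] at h1
  exact absurd h1 (by norm_num)

theorem xC_eq : elw [.a, .b, .h, .i] = xC := by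
  unfold xC LThreeFi23.u1 LThreeFi23.u2
  rw [elw_cons, elw_cons, elw_cons, elw_cons, elw_nil, mul_one, ← mul_assoc]

theorem not_conj_xC : ¬ IsConj W xC := by
  intro h
  have h1 := ncard_conj h
  rw [ncard_W, ← xC_eq, ncard_moved [.a, .b, .h, .i] (Nat.eq_of_beq_eq_true chk_xC)] at h1
  exact absurd h1 (by norm_num)

/-- **the centralizer of `w0` is a `{2, 3}`-group** -/
theorem prime_cent {r : ℕ} (hr : r.Prime) (hd : r ∣ Nat.card ↥(centralizer ({W} : Set Fi23))) : r = 2 ∨ r = 3 := by
  by_contra hc
  have hr5 : 5 ≤ r := by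
    have h2 := hr.two_le
    by_contra h
    have h4 : r = 4 := by
      push Not at hc
      omega
    subst h4
    exact absurd hr (by norm_num)
  have : Fact r.Prime := ⟨hr⟩
  obtain ⟨y, hy⟩ := exists_prime_orderOf_dvd_card' r hd
  have hyr : (y : Fi23) ^ r = 1 := by
    rw [← Subgroup.coe_pow, ← hy, pow_orderOf_eq_one]
    rfl
  have hy1 : (y : Fi23) ≠ 1 := by
    intro h1
    have h2 : y = 1 := Subtype.ext h1
    rw [h2, orderOf_one] at hy
    have := hr.one_lt
    omega
  rcases two_classes hr hr5 hyr hy1 (Tel.of_three W_cube) W_ne_one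
    (mem_centralizer_singleton_iff.1 y.2).symm with h | h
  · exact not_conj_uu h
  · exact not_conj_xC h

theorem cent_solvable : Group.IsSolvable ↥(centralizer ({W} : Set Fi23)) :=
  LThreeFi24.Comp.solvable_of_primes fun _ hr hd => prime_cent hr hd

theorem semi {g : Fi23} (h : g ∈ NW) : SemiconjBy g W W ∨ SemiconjBy g W W⁻¹ := by
  rcases mem_NW_iff.1 h with h | h
  · left
    unfold SemiconjBy
    calc g * W = g * W * g⁻¹ * g := by group
      _ = W * g := by rw [h]
  · right
    unfold SemiconjBy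
    calc g * W = g * W * g⁻¹ * g := by group
      _ = W⁻¹ * g := by rw [h]

theorem comm_le : commutator ↥NW ≤ (centralizer ({W} : Set Fi23)).subgroupOf NW := by
  rw [commutator_def, commutator_le]
  intro g _ h _
  rw [mem_subgroupOf, mem_centralizer_singleton_iff, commutatorElement_def]
  push_cast
  change SemiconjBy ((g : Fi23) * h * (g : Fi23)⁻¹ * (h : Fi23)⁻¹) W W
  have inv1 : ∀ {x : Fi23}, SemiconjBy x W W⁻¹ → SemiconjBy x W⁻¹ W := by
    intro x hx
    have := hx.inv_right
    rwa [inv_inv] at this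
  rcases semi g.2 with hg | hg <;> rcases semi h.2 with hh | hh
  · exact ((hg.mul_left hh).mul_left hg.inv_symm_left).mul_left hh.inv_symm_left
  · exact ((hg.mul_left (inv1 hh)).mul_left hg.inv_right.inv_symm_left).mul_left (inv1 hh).inv_symm_left
  · exact (((inv1 hg).mul_left hh.inv_right).mul_left (inv1 hg).inv_symm_left).mul_left hh.inv_symm_left
  · exact (((inv1 hg).mul_left hh).mul_left hg.inv_symm_left).mul_left (inv1 hh).inv_symm_left

theorem cent_le : centralizer ({W} : Set Fi23) ≤ NW := fun _ hg =>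
  mem_NW_of_comm (mem_centralizer_singleton_iff.1 hg)

/-- **the normalizer of `⟨w0⟩` is solvable** -/
theorem NW_solvable : Group.IsSolvable ↥NW := by
  have h1 : Group.IsSolvable ↥((centralizer ({W} : Set Fi23)).subgroupOf NW) := by
    have := cent_solvable
    exact Group.isSolvable_of_isSolvable_injective (f := (subgroupOfEquivOfLe cent_le).toMonoidHom)
      (subgroupOfEquivOfLe cent_le).injective
  refine Group.isSolvable_of_ker_le_range ((centralizer ({W} : Set Fi23)).subgroupOf NW).subtype
    (Abelianization.of (G := ↥NW)) ?_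
  rw [Abelianization.ker_of, Subgroup.range_subtype]
  exact comm_le

end Cfsg.Agent.H935.FiThree
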